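import Cfsg.Agent.H207.TriFix
import Cfsg.Agent.S4278
import Cfsg.Agent.S1067

/-!
# Involutions of `³D₄(q)`, `q` odd (helper512)

* `exists_gtwo` : `G₂(q) ≤ ³D₄(q)`;
* `one_class` : one class of involutions (`G₂(q) ≤ ³D₄(q)` has odd index, S4278);
-/

set_option autoImplicit false

namespace Cfsg.Agent.H512.TDFour

open Subgroup Cfsg Cfsg.Lie Cfsg.Agent.ChevalleyStructure Cfsg.Agent.ChevalleyStructure.Elts
  Cfsg.Agent.ChevalleyStructure.D4Fixed Cfsg.Agent.ChevalleyStructure.D4NConj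
  Cfsg.Agent.ChevalleyStructure.D4NCheck Cfsg.Agent.ChevalleyStructure.D4Perfect Cfsg.Agent.ChevalleyStructure.D4Comm

/-! ### `G₂(q) ≤ ³D₄(q)` -/

/-- **`G₂(q) ≤ ³D₄(q)`** -/
theorem exists_gtwo {K : Type} [Field K] [Fintype K] {q : ℕ} (hq : IsPrimePow q) (hK : Fintype.card K = q ^ 3) :
    ∃ (k : Type) (_ : Field k) (_ : Fintype k) (M : Subgroup ↥(twistedD4 K q)), Fintype.card k = q ∧
      Nonempty (↥M ≃* ↥(chevG2.group k)) := by
  obtain ⟨φ, hφ⟩ := exists_frob hq hK
  let S : Set (K →+* K) := {RingHom.id K, φ}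
  have hid : RingHom.id K ∈ S := Or.inl rfl
  have hmem : ∀ t : K, t ∈ CpAutTri.Gen.kF S ↔ φ t = t := by
    intro t
    rw [CpAutTri.Gen.mem_kF]
    constructor
    · intro h
      exact h φ (Or.inr rfl)
    · rintro h ψ (rfl | hψ)
      · rfl
      · rw [Set.mem_singleton_iff.1 hψ]
        exact h
  have hle : CpAutTri.Nor.DS S ≤ twistedD4 K q := by
    refine CpAutTri.Gen.DS_le hid ?_ ?_ ?_ ?_
    · intro t ht
      have h1 := (hmem t).1 ht
      rw [hφ] at h1
      exact D4Fixed.x14_mem h1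
    · intro t ht
      have h1 := (hmem t).1 ht
      rw [hφ] at h1
      exact D4Fixed.x9_mem h1
    · intro t ht
      have h1 := (hmem t).1 ht
      have h2 := D4Fixed.X_mem hφ t
      have h3 : CpAutTri.Gen.X t = D4Fixed.X φ t := by
        rw [CpAutTri.Gen.X_eq]
        unfold D4Fixed.X
        rw [h1, h1]
        rfl
      rw [h3]
      exact h2
    · intro t ht
      have h1 := (hmem t).1 ht
      have h2 := D4Fixed.Y_mem hφ t
      have h3 : CpAutTri.Gen.Y t = D4Fixed.Y φ t := by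
        rw [CpAutTri.Gen.Y_eq]
        unfold D4Fixed.Y
        rw [h1, h1]
        rfl
      rw [h3]
      exact h2
  obtain ⟨e⟩ := CpAutTri.Hom.equivG2 hid (by
    intro g hg h
    have hf : g ∈ D4Fixed.fix (RingHom.id K) := CpAutTri.Hom.DS_le_fix hid hg
    refine H207.TriFix.rho3_inj (CpAutTri.Nor.DS_le_G _ hg) hf ?_
    apply Units.ext
    rw [CpAutTri.Hom.coe_rho3]
    show CpAutTri.Iota.J K * ((g : Matrix chevD4.Idx chevD4.Idx K) * CpAutTri.Iota.I K) = 1
    rw [h, CpAutTri.Iota.J_mul_I])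
  classical
  have hfin : Fintype ↥(CpAutTri.Gen.kF S) := Fintype.ofFinite _
  have hcard : Fintype.card ↥(CpAutTri.Gen.kF S) = q := by
    rw [← Nat.card_eq_fintype_card, ← D4U.card_fix_field hq.one_lt hK hφ]
    exact Nat.card_congr (Equiv.subtypeEquivRight hmem)
  exact ⟨_, inferInstance, hfin, (CpAutTri.Nor.DS S).subgroupOf (twistedD4 K q), hcard,
    ⟨(Subgroup.subgroupOfEquivOfLe hle).trans e⟩⟩

/-- **One class of involutions.** -/
theorem one_class {K : Type} [Field K] [Fintype K] {q : ℕ} (hq : IsPrimePow q) (hK : Fintype.card K = q ^ 3)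
    (hodd : Odd q) {s t : ↥(twistedD4 K q)} (hs : orderOf s = 2) (ht : orderOf t = 2) : IsConj s t := by
  have : Finite ↥(twistedD4 K q) := inferInstance
  obtain ⟨k, _, _, M, hk, ⟨e⟩⟩ := exists_gtwo hq hK
  have hcM : Nat.card M = q ^ 6 * (q ^ 6 - 1) * (q ^ 2 - 1) := by
    rw [Nat.card_congr e.toEquiv, S1059.result (F := k) hk]
    ring
  have hidx : ¬ 2 ∣ M.index := by
    have h3 := M.card_mul_index
    rw [hcM, S1067.result hq hK] at h3
    have hq1 : 1 < q := hq.one_lt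
    have hpos : 0 < q ^ 6 * (q ^ 6 - 1) * (q ^ 2 - 1) := by
      have h2 : 1 < q ^ 2 := Nat.one_lt_pow (by norm_num) hq1
      have h6 : 1 < q ^ 6 := Nat.one_lt_pow (by norm_num) hq1
      have h4 : 0 < q ^ 2 - 1 := by omega
      have h5 : 0 < q ^ 6 - 1 := by omega
      positivity
    have h5 : M.index = q ^ 6 * (q ^ 8 + q ^ 4 + 1) := by
      apply Nat.eq_of_mul_eq_mul_left hpos
      rw [h3]
      ring
    rw [h5]
    have h6 : Odd (q ^ 6 * (q ^ 8 + q ^ 4 + 1)) := hodd.pow.mul (hodd.pow.add_odd hodd.pow).add_one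
    intro hdvd
    exact (Nat.not_even_iff_odd.2 h6) (even_iff_two_dvd.2 hdvd)
  have key : ∀ x : ↥(twistedD4 K q), orderOf x = 2 → ∃ y : ↥M, orderOf y = 2 ∧ IsConj x (y : ↥(twistedD4 K q)) := by
    intro x hx
    obtain ⟨g, hg⟩ := S4278.exists_conj_mem M hidx hx
    refine ⟨⟨_, hg⟩, ?_, isConj_iff.2 ⟨g, rfl⟩⟩
    rw [Subgroup.orderOf_mk]
    have := orderOf_injective (MulAut.conj g).toMonoidHom (MulAut.conj g).injective x
    exact this.trans hx
  obtain ⟨s', hs', hcs⟩ := key s hs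
  obtain ⟨t', ht', hct⟩ := key t ht
  have hkodd : Odd (Fintype.card k) := by rw [hk]; exact hodd
  have h1 := S4278.result hkodd (e s') (e t') ((orderOf_injective e.toMonoidHom e.injective s').trans hs')
    ((orderOf_injective e.toMonoidHom e.injective t').trans ht')
  obtain ⟨c, hc⟩ := isConj_iff.1 h1
  have h2 : IsConj (s' : ↥(twistedD4 K q)) (t' : ↥(twistedD4 K q)) := by
    refine isConj_iff.2 ⟨(e.symm c : ↥M), ?_⟩
    have h3 : e.symm c * s' * (e.symm c)⁻¹ = t' := by
      apply e.injective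
      rw [map_mul, map_mul, map_inv, e.apply_symm_apply]
      exact hc
    exact congrArg Subtype.val h3
  exact (hcs.trans h2).trans hct.symm

end Cfsg.Agent.H512.TDFour
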